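import Cfsg.Agent.H22.AI2
import Cfsg.Agent.H25.GrpLem
import Cfsg.Prelude.Def_TwoFusion

/-! Groups with abelian Sylow `2`-intersections, part 3: for a perfect group without nontrivial strongly closed abelian
`2`-subgroup (`Cx`), an essential subgroup of type `Q2` that is not normal in `S` forces `S` dihedral (`Cx.dihedral`). -/

set_option autoImplicit false
set_option linter.unusedSectionVars false
open Cfsg H18 Subgroup
open scoped commutatorElement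

namespace H22.AI
variable {G : Type*} [Group G] [Finite G] {S A B K M W : Subgroup G} {a b c d e f g k n s t u v w x y z : G}

/-- `Ctx` in a perfect group without nontrivial strongly closed abelian `2`-subgroup -/
structure Cx (S : Subgroup G) : Prop extends Ctx S where
  pf : commutator G = ⊤
  sc : ∀ W, Abel W → IsStronglyClosed W S → W = ⊥

theorem Cx.scl (h : Cx S) (hW : W ≤ S) (ab : Abel W) (h1 : N(S) ≤ N(W)) (h3 : ∀ A, Ess S A → ∀ n ∈ N(A), ∀ u ∈ S ⊓ N(A),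
    ∀ x ∈ A, x ∈ W → (n * u * n⁻¹)⁻¹ * x * (n * u * n⁻¹) ∈ W) : W = ⊥ := by
  refine h.sc W ab ⟨hW, fun x hx g hg => ?_⟩
  have := h.alperin (fun D g => ∀ x ∈ D, x ∈ W → g⁻¹ * x * g ∈ W) (fun A B g l r x hx => r x (l hx))
    (fun A B g k l r r' x hx q => by simpa [mul_assoc] using r' _ (l x hx) (r x hx q))
    (fun g hg x _ => conj_mem_N' (h1 hg)) (fun D _ c hc x hx q => by rwa [mul_assoc, mem_C.1 hc x hx, inv_mul_cancel_left])
    h3 (A := zpowers x) (g := g⁻¹) (zpowers_le.2 (hW hx)) (fun y hy => by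
      rw [inv_inv]; exact (show cj g (zpowers x) ≤ S by rw [cj_zpowers]; exact zpowers_le.2 hg) (conj_mem_cj hy))
    x (mem_zpowers x) hx
  rwa [inv_inv] at this

theorem Cx.foc (h : Cx S) (h1 : ∀ g ∈ N(S), ∀ x ∈ S, x⁻¹ * (g⁻¹ * x * g) ∈ K) (h3 : ∀ A, Ess S A → ∀ n ∈ N(A),
    ∀ u ∈ S ⊓ N(A), ∀ x ∈ A, x⁻¹ * ((n * u * n⁻¹)⁻¹ * x * (n * u * n⁻¹)) ∈ K) : S ≤ K := by
  have := Fact.mk Nat.prime_two
  obtain ⟨P, rfl⟩ := h.syl.exists_sylow_top Nat.prime_two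
  refine le_trans (le_inf (h.pf ▸ le_top) le_rfl) (H3.commutator_inf_sylow_le P fun x hx g hg => ?_)
  have := h.alperin (fun D g => ∀ x ∈ D, x⁻¹ * (g⁻¹ * x * g) ∈ K) (fun A B g l r x hx => r x (l hx))
    (fun A B g k l r r' x hx => by simpa [mul_assoc] using mul_mem (r x hx) (r' _ (l x hx))) h1
    (fun D _ c hc x hx => by rw [mul_assoc c⁻¹, mem_C.1 hc x hx, inv_mul_cancel_left, inv_mul_cancel]; exact one_mem _)
    h3 (A := zpowers x) (g := g⁻¹) (zpowers_le.2 hx) (fun y hy => by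
      rw [inv_inv]; exact (show cj g (zpowers x) ≤ P by rw [cj_zpowers]; exact zpowers_le.2 hg) (conj_mem_cj hy))
    x (mem_zpowers x)
  rwa [inv_inv] at this

theorem Cx.sc2 (h : Cx S) (i2 : ∀ x ∈ S, ∀ y ∈ S, x ∉ M → y ∉ M → x * y ∈ M) (h1 : N(S) ≤ N(M))
    (h3 : ∀ A, Ess S A → A ≤ M) : S ≤ M := by
  refine h.foc (fun g hg x hx => ?_) fun A hA n hn u hu x hx =>
    h3 A hA (mul_mem (inv_mem hx) (conj_mem_N' (conj_mem_N (le_N hn) hu.2) hx))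
  by_cases k : x ∈ M
  · exact mul_mem (inv_mem k) (conj_mem_N' (h1 hg) k)
  · exact i2 _ (inv_mem hx) _ (conj_mem_N' hg hx) (fun q => k (inv_mem_iff.1 q)) fun q => k (by
      simpa [mul_assoc] using conj_mem_N (h1 hg) q)

theorem Cx.gw (h : Cx S) (hw : w ∈ Z(S)) (h3 : ∀ A, Ess S A → ∀ n ∈ N(A), n * w * n⁻¹ ∈ C(S ⊓ N(A))) : w = 1 := by
  have e : ∀ w, w ∈ Z(S) ⊓ ⨅ A, ⨅ (_ : Ess S A), ⨅ n ∈ N(A), cj n⁻¹ C(S ⊓ N(A)) ↔
      w ∈ Z(S) ∧ ∀ A, Ess S A → ∀ n ∈ N(A), n * w * n⁻¹ ∈ C(S ⊓ N(A)) := fun w => by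
    simp only [mem_inf (p := Z(S)), mem_iInf, mem_cj, inv_inv]
  refine eq_one_of_eq_bot (h.scl (inf_le_left.trans inf_le_left) (abel_Z.mono inf_le_left)
    (fun g hg => mem_N_of_finite fun x hx => ?_) fun A hA n hn u hu x _ hx => ?_) ((e w).2 ⟨hw, h3⟩) <;> rw [e] at hx
  · refine (e _).2 ⟨conj_mem_N (norm_Z le_rfl hg) hx.1, fun A hA n hn => ?_⟩
    have := conj_mem_cj (g := g) (hx.2 _ (hA.cj (inv_mem hg)) (g⁻¹ * n * g) (by rw [← cj_N, mem_cj]; simpa [mul_assoc]))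
    rw [cj_C, U_cj hg, cj_cj, mul_inv_cancel, cj_one] at this
    simpa [mul_assoc] using this
  · have := mem_C.1 (hx.2 A hA _ (inv_mem hn)) u hu
    rw [show (n * u * n⁻¹)⁻¹ * x * (n * u * n⁻¹) = n * (u⁻¹ * (n⁻¹ * x * n⁻¹⁻¹ * u)) * n⁻¹ by group, ← this]
    exact (e _).2 (by simpa [mul_assoc] using hx)

namespace Dih
variable (h : Dih S z a c)
include h
theorem nC (ht : t ∈ S) : t ∈ N(zpowers c) := (h.nm ht).1
theorem cm (ht : t ∈ S) : ⁅t, a⁆ ∈ zpowers c := (h.nm ht).2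
theorem conj_sq (ht : t ∈ S) (hd : d ∈ zpowers (c * c)) : t * d * t⁻¹ ∈ zpowers (c * c) := by
  obtain ⟨e, he, rfl⟩ := zp_half hd
  rw [← conj_mul]; exact zp_sq (conj_mem_N (h.nC ht) he)
theorem mem0 (ht : t ∈ S) (k : ⁅t, a⁆ ∈ zpowers (c * c)) : t ∈ S ⊓ Sub (zpowers (c * c)) a :=
  ⟨ht, mem_N_of_finite fun _ => h.conj_sq ht, k⟩
theorem i2 : ∀ x ∈ S, ∀ y ∈ S, x ∉ S ⊓ Sub (zpowers (c * c)) a → y ∉ S ⊓ Sub (zpowers (c * c)) a →
    x * y ∈ S ⊓ Sub (zpowers (c * c)) a := fun x hx y hy h1 h2 => h.mem0 (mul_mem hx hy) <| by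
  rw [cm_ml]
  refine zp_i2 (conj_mem_N (h.nC hx) (h.cm hy)) (h.cm hx) (fun q => h2 (h.mem0 hy ?_)) fun q => h1 (h.mem0 hx q)
  simpa [mul_assoc] using h.conj_sq (inv_mem hx) q
theorem cm_om (hw : w ∈ zpowers c) (e : w * w = z) (hx : x ∈ S) : ⁅w, x⁆ = 1 ∨ ⁅w, x⁆ = z := by
  have k := conj_mem_N (h.nC hx) (inv_mem hw)
  have : ⁅w, x⁆ = w * (x * w⁻¹ * x⁻¹) := by rw [commutatorElement_def]; group
  rw [this]
  refine h.uniq (mul_mem hw k) ?_
  rw [sq_mul (zp_comm hw k), conj_mul, ← mul_inv_rev, e, ← conj_inv, h.inv.central hx, mul_inv_cancel]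
theorem sq_one (hw : w ∈ zpowers c) (e : w * w = z) (hv : v * w = w * v) (hS : v ∈ S) (hd : d ∈ zpowers c)
    (hi : v * d * v⁻¹ = d⁻¹) : d * d = 1 := by_contra fun k => by
  obtain ⟨f, hf, h1, h2⟩ := exists_four (h.inv.pi.elt (h.le hd)) k
  have fc := zpowers_le.2 hd hf
  have i := zp_inv hi hf
  have : v * (f * w⁻¹) * v⁻¹ = f * w⁻¹ := by
    rcases h.uniq (mul_mem fc (inv_mem hw)) (by
      rw [sq_mul (zp_comm fc (inv_mem hw)), ← mul_inv_rev, e, h.inv.om (h.le fc) (h.ainv fc) h1 h2, mul_inv_cancel])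
      with q | q <;> rw [q]
    · group
    · exact h.inv.central hS
  rw [← conj_mul, i, ← conj_inv, hv, mul_inv_cancel_right, mul_left_inj] at this
  exact h1 (by nth_rw 1 [← this]; group)
end Dih

/-- the configuration of a non-normal essential subgroup of type `Q2` -/
structure T2 (S A : Subgroup G) (z a c : G) : Prop where
  cx : Cx S
  ei : EI S A z a
  dih : Dih S z a c

namespace T2
variable (h : T2 S A z a c)
include h

theorem dec (ht : t ∈ S ⊓ Sub (zpowers (c * c)) a) : ∃ d ∈ zpowers c, d⁻¹ * t ∈ A := by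
  obtain ⟨d, hd, e⟩ := zp_half ht.2.2
  refine ⟨d, hd, h.ei.cent (mul_mem (inv_mem (h.dih.le hd)) ht.1) (cm_one.1 ?_)⟩
  rw [cm_ml, e, cm_of_inv (h.dih.ainv (inv_mem hd))]; group

theorem cj_le (ht : t ∈ S) : cj t A ≤ S ⊓ Sub (zpowers (c * c)) a :=
  cj_le_of_mem_N (fun _ hx => h.dih.mem0 (h.ei.q.ess.sc.le hx) (by
    rw [cm_one.2 (h.ei.q.ess.sc.comm hx h.ei.mem)]; exact one_mem _)) (norm_i2 inf_le_left h.dih.i2 ht)

theorem alpha (h' : EI S B z b) (hb : ⁅b, a⁆ ∈ zpowers (c * c)) : (∃ t ∈ S, B = cj t A) ∧ b * a⁻¹ ∈ zpowers c := by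
  obtain ⟨d, hd, e⟩ := h.dih.fixr h'.aS h'.a2 (h.dih.nC h'.aS) hb
  obtain ⟨t, ht, r⟩ := h.dih.refl hd
  have i := h.ei.cj (le_N ht)
  rw [h.dih.inv.central ht, ← r] at i
  have k := i.cent h'.aS e
  obtain rfl : B = cj t A := i.q.ess.sc.eq_of_le h'.q.ess.sc.le h'.q.ess.sc.ab
    fun y hy => h'.cent (i.q.ess.sc.le hy) (i.q.ess.sc.comm hy k)
  refine ⟨⟨t, ht, rfl⟩, ?_⟩
  rw [show b * a⁻¹ = b * (d * a)⁻¹ * d by group]
  rcases i.two h' with q | q <;> rw [q]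
  exacts [mul_mem (one_mem _) hd, mul_mem (zp_le h.dih.zC) hd]

theorem om_not (hB : Ess S B) (hw : w ∈ zpowers c) (e : w * w = z) : w ∉ B := fun wB => by
  have ab := hB.sc.ab
  have p : ∀ v ∈ Om B, v ∈ S ∧ v * v = 1 ∧ v * w = w * v := fun v hv =>
    ⟨hB.sc.le (Om_le hv), ((mem_Om ab).1 hv).2, hB.sc.comm (Om_le hv) wB⟩
  have q : ∀ v ∈ Om B, ∀ y, ⁅v, y⁆ ∈ zpowers c → ⁅v, y⁆ * ⁅v, y⁆ = 1 := fun v hv y hy =>
    h.dih.sq_one hw e (p v hv).2.2 (p v hv).1 hy (inv_cm (p v hv).2.1)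
  have r : ∀ v ∈ Om B, ∃ d ∈ zpowers c, v * (d * a) = d * a * v := fun v hv =>
    h.dih.fixr (p v hv).1 (p v hv).2.1 (h.dih.nC (p v hv).1) (h.dih.uniq' (h.dih.cm (p v hv).1) (q v hv a (h.dih.cm (p v hv).1)))
  have r' : ∀ v ∈ Om B, ⁅v, c⁆ = 1 → ∀ d ∈ zpowers c, v * (d * a) = d * a * v := fun v hv k d hd => by
    have k' : ∀ d ∈ zpowers c, v * d = d * v := fun d hd =>
      mem_C1.1 (zpowers_le.2 (mem_C1.2 (cm_one.1 k).symm) hd) |>.symm
    obtain ⟨f, hf, l⟩ := r v hv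
    rw [← mul_assoc, k' f hf, mul_assoc, mul_assoc, mul_right_inj] at l
    rw [← mul_assoc, k' d hd, mul_assoc, l, mul_assoc]
  have cc : ∀ v ∈ Om B, ⁅v, c⁆ ≠ 1 → ⁅v, c⁆ = z := fun v hv k =>
    have m := cm_mem (h.dih.nC (p v hv).1) (mem_zpowers c)
    (h.dih.uniq m (q v hv c m)).resolve_left k
  obtain ⟨d, hd, l⟩ : ∃ d ∈ zpowers c, d * a ∈ C(Om B) := by
    by_cases k : ∀ v ∈ Om B, ⁅v, c⁆ = 1
    · exact ⟨1, one_mem _, mem_C.2 fun v hv => r' v hv (k v hv) 1 (one_mem _)⟩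
    push Not at k
    obtain ⟨u, hu, k⟩ := k
    obtain ⟨d, hd, l⟩ := r u hu
    refine ⟨d, hd, mem_C.2 fun v hv => (em (⁅v, c⁆ = 1)).elim (fun k' => r' v hv k' d hd) fun k' => ?_⟩
    have := r' _ (mul_mem hv hu) (by rw [cm_ml, cc u hu k, cc v hv k', h.dih.inv.central (p v hv).1, h.dih.z2]) d hd
    rwa [mul_assoc v, l, ← mul_assoc, ← mul_assoc _ v, mul_left_inj] at this
  have := h.dih.rinv hd hw
  rw [hB.sc.comm (hB.cent_om (mul_mem (h.dih.le hd) h.dih.inv.aS) l) wB, mul_inv_cancel_right] at this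
  exact h.dih.inv.z1 (by rw [← e]; nth_rw 1 [this]; group)

/-- every essential subgroup is of type `Q2` -/
theorem all (hB : Ess S B) : Q2 S B z := by
  obtain ⟨w, hw, e, -⟩ := h.dih.om
  have wB := h.om_not hB hw e
  have wS := h.dih.le hw
  have zB : z ∈ B := hB.sc.mem (h.dih.le (zp_le h.dih.zC)) (mem_C.2 fun x hx => h.dih.inv.comm (hB.sc.le hx))
  have wN : w ∈ N(B) := mem_N_of_finite fun x hx => by
    rw [cm_eq]; rcases h.dih.cm_om hw e (hB.sc.le hx) with q | q <;> rw [q]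
    exacts [mul_mem (one_mem _) hx, mul_mem zB hx]
  have nE : ¬ zpowers w ≤ C(B) := fun q => wB (hB.sc.mem wS (q (mem_zpowers w)))
  have F : FF S B B (zpowers w) := by
    refine ⟨hB, le_rfl, le_rfl, fun _ _ => id, zpowers_le.2 (U_le_PP ⟨wS, wN⟩), nE, fun f hf v hv => ?_,
      (relIndex_le_two fun x hx y hy h1 h2 => mem_inf.2 ⟨mul_mem hx hy, ?_⟩).trans (one_lt_relIndex nE)⟩
    · have fc := zpowers_le.2 hw hf
      refine C_anti (zpowers_le.2 hw) (abel_zpowers ?_)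
      rw [← commutatorElement_inv]; exact inv_mem (cm_mem (h.dih.nC (hB.sc.le hv)) fc)
    · have f : ∀ x ∈ B, x ∉ B ⊓ C(zpowers w) → ⁅w, x⁆ = z := fun x hx k => (h.dih.cm_om hw e (hB.sc.le hx)).resolve_left
        fun q => k ⟨hx, by rw [C_zpowers]; exact mem_C1.2 (cm_one.1 q).symm⟩
      rw [C_zpowers, mem_C1, eq_comm, ← cm_one, cm_mul_right (hB.sc.comm hx (cm_mem wN hy)), f x hx h1, f y hy h2, h.dih.z2]
  have k : ∀ u ∈ S ⊓ N(B), u ∉ B → ∃ x ∈ B, u = w * x := fun u hu hn => by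
    obtain ⟨f, hf, l⟩ := F.syl (U_le_PP hu)
    have l := hB.sc.mem (mul_mem (inv_mem hu.1) (zpowers_le.2 wS hf)) l
    have zp : zpowers (w * w) ≤ B := zpowers_le.2 (e ▸ zB)
    rcases zp_or hf with q | q
    · exact absurd (inv_mem_iff.1 ((mul_mem_cancel_right (zp q)).1 l)) hn
    · exact ⟨_, mul_mem (zp q) (inv_mem l), by group⟩
  refine ⟨hB, h.dih.inv.z1, fun u hu v hv h1 h2 => ?_, fun u hu x hx => ?_⟩
  · obtain ⟨x, hx, rfl⟩ := k u hu h1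
    obtain ⟨y, hy, rfl⟩ := k v hv h2
    rw [show w * x * (w * y) = w * x * w⁻¹ * (w * w) * y by group, e]
    exact mul_mem (mul_mem (conj_mem_N wN hx) zB) hy
  · by_cases q : u ∈ B
    · exact .inl (cm_one.2 (hB.sc.comm q hx))
    obtain ⟨y, hy, rfl⟩ := k u hu q
    rw [cm_ml, cm_one.2 (hB.sc.comm hy hx), mul_one, mul_inv_cancel, one_mul]
    exact h.dih.cm_om hw e (hB.sc.le hx)

theorem fix (hg : g ∈ N(S)) : g * z * g⁻¹ = z := (h.all (h.ei.q.ess.cj hg)).uniq (h.ei.q.cj hg)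

/-- there is a second class of essential subgroups -/
theorem second : ∃ B b, EI S B z b ∧ ⁅b, a⁆ ∉ zpowers (c * c) := by
  by_contra! k
  have l : ∀ B, Ess S B → B ≤ S ⊓ Sub (zpowers (c * c)) a := fun B hB => by
    obtain ⟨n, hn⟩ := id hB
    have i : EI S B z _ := ⟨h.all hB, n, hn, rfl⟩
    obtain ⟨⟨t, ht, rfl⟩, -⟩ := h.alpha i (k _ _ i)
    exact h.cj_le ht
  have m : ∀ g ∈ N(S), ∀ t ∈ S, ∀ x ∈ A, g * (t * x * t⁻¹) * g⁻¹ ∈ S ⊓ Sub (zpowers (c * c)) a := fun g hg t ht x hx =>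
    l _ ((h.ei.q.ess.cj (le_N ht)).cj hg) (conj_mem_cj (conj_mem_cj hx))
  obtain ⟨s, hs, e⟩ := h.dih.ex
  refine h.dih.nsq (e ▸ (h.cx.sc2 h.dih.i2 (fun g hg => mem_N_of_finite fun t ht => ?_) l hs).2.2)
  obtain ⟨d, hd, q⟩ := h.dec ht
  obtain ⟨r, hr, e'⟩ := h.dih.refl hd
  have := mul_mem (m g hg r hr a h.ei.mem) (m g hg 1 (one_mem _) _ (mul_mem (inv_mem h.ei.mem) q))
  rw [← e'] at this
  simpa [mul_assoc] using this

theorem refl (h' : T2 S B z b f) (hb : ⁅b, a⁆ ∉ zpowers (c * c)) (ha : ⁅a, b⁆ ∉ zpowers (f * f)) (i : EI S K z x) :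
    x * a⁻¹ ∈ zpowers (b * a) ∧ zpowers c ≤ zpowers (b * a) := by
  have D := h.dih
  have g1 := D.cm h'.ei.aS
  have e : zpowers f = zpowers c := by
    have e1 := le_antisymm (zpowers_le.2 g1) (zpowers_le.2 (zp_gen (D.inv.pi.elt D.cS) g1 hb))
    have g2 := h'.dih.cm h.ei.aS
    rw [← e1, ← le_antisymm (zpowers_le.2 g2) (zpowers_le.2 (zp_gen (D.inv.pi.elt h'.dih.cS) g2 ha)),
      ← commutatorElement_inv b, zpowers_inv]
  have sq := cm_sq h'.ei.a2 h.ei.a2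
  have l : zpowers c ≤ zpowers (b * a) := zpowers_le.2 (zpowers_le.2 (sq ▸ zp_le (mem_zpowers _))
    (zp_gen (D.inv.pi.elt D.cS) g1 hb))
  refine ⟨?_, l⟩
  by_cases k1 : ⁅x, a⁆ ∈ zpowers (c * c)
  · exact l (h.alpha i k1).2
  by_cases k2 : ⁅x, b⁆ ∈ zpowers (f * f)
  · rw [show x * a⁻¹ = x * b⁻¹ * (b * a) * (a * a)⁻¹ by group, h.ei.a2, inv_one, mul_one]
    exact mul_mem (l (e ▸ (h'.alpha i k2).2)) (mem_zpowers _)
  exfalso
  have p := D.cm i.aS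
  have q : ⁅x, b⁆ ∈ zpowers c := e ▸ h'.dih.cm i.aS
  have k2' : ⁅x, b⁆ ∉ zpowers (c * c) := fun r => k2 (by obtain ⟨y, hy, r⟩ := zp_half r; exact r ▸ zp_sq (e ▸ hy))
  have d := zp_i2 q (inv_mem p) k2' fun r => k1 (inv_mem_iff.1 r)
  have xi := zp_inv (inv_cm (y := a) i.a2) (zpowers_le.2 (zp_gen (D.inv.pi.elt D.cS) p k1) g1)
  have : x * (b * a) * x⁻¹ = ⁅x, b⁆ * ⁅x, a⁆⁻¹ * (b * a) := by
    rw [← conj_mul, cm_eq, cm_eq (t := x), ← h'.dih.ainv (e ▸ p)]; group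
  rw [sq, ← conj_mul, this, sq_mul (zp_comm (l (zp_le d)) (mem_zpowers _)), ← sq] at xi
  refine hb ((mul_mem_cancel_left d).1 (D.uniq' (mul_mem (zp_le d) g1) ?_))
  rw [sq_mul (zp_comm (zp_le d) g1), ← mul_assoc, xi, inv_mul_cancel]

end T2

theorem Cx.dihedral (h : Cx S) (hA : EI S A z a) (hn : ¬ S ≤ N(A)) :
    ∃ m : ℕ, 2 ≤ m ∧ Nonempty (S ≃* DihedralGroup m) := by
  obtain ⟨s, hs, hs'⟩ := SetLike.not_le_iff_exists.1 hn
  obtain ⟨c, D⟩ := hA.inv.dih hs fun k => hs' (hA.norm hs k)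
  have T : T2 S A z a c := ⟨h, hA, D⟩
  obtain ⟨B, b, hB, hb⟩ := T.second
  obtain ⟨f, D'⟩ := hB.inv.dih hA.aS fun k => hb (D.uniq' (D.cm hB.aS) (by
    rw [← commutatorElement_inv a, ← mul_inv_rev, k, inv_one]))
  have T' : T2 S B z b f := ⟨h, hB, D'⟩
  have ha : ⁅a, b⁆ ∉ zpowers (f * f) := fun k => by
    obtain ⟨⟨t, ht, e⟩, -⟩ := T'.alpha hA k
    exact hb (T.cj_le (inv_mem ht) ((eq_cj_iff.1 e).ge hB.mem)).2.2
  have R := fun K x (i : EI S K z x) => (T.refl T' hb ha i).1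
  have l := (T.refl T' hb ha hA).2
  have ai := inv_eq_of_mul_eq_one_right hA.a2
  have uS := mul_mem hB.aS hA.aS
  have ui : a * (b * a) * a⁻¹ = (b * a)⁻¹ := by
    rw [mul_inv_rev, inv_eq_of_mul_eq_one_right hB.a2, ← mul_assoc, mul_inv_cancel_right, ai]
  generalize hu : b * a = u at R l uS ui
  have zu := l (zp_le D.zC)
  have nS : N(S) ≤ Sub (zpowers u) a := fun g hg => by
    have i := hA.cj hg
    have j := hB.cj hg
    rw [T.fix hg] at i j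
    refine ⟨mem_N_of_cj_le (by
      rw [cj_zpowers, zpowers_le]
      convert mul_mem (R _ _ j) (inv_mem (R _ _ i)) using 1
      rw [← hu, mul_inv_rev, inv_inv, inv_eq_of_mul_eq_one_right i.a2]; group), R _ _ i⟩
  have aN : zpowers a ≤ N(zpowers u) := zpowers_le.2 (nS (le_N hA.aS)).1
  have RD : ∀ K x, EI S K z x → x ∈ zpowers u ⊔ zpowers a := fun K x i => by
    simpa using mul_mem_sup' (R K x i) (mem_zpowers a)
  have nD : N(S) ≤ N(zpowers u ⊔ zpowers a) := fun g hg => mem_N_of_cj_le <| by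
    rw [cj_sup, cj_eq_self (nS hg).1, cj_zpowers, cm_eq]
    exact sup_le le_sup_left (zpowers_le.2 (mul_mem_sup' (nS hg).2 (mem_zpowers a)))
  have DS : zpowers u ⊔ zpowers a ≤ S := sup_le (zpowers_le.2 uS) (zpowers_le.2 hA.aS)
  have SD : S ≤ (zpowers u ⊔ zpowers a) ⊔ A := fun t ht => by
    have k : S ⊓ Sub (zpowers (c * c)) a ≤ (zpowers u ⊔ zpowers a) ⊔ A := fun t ht => by
      obtain ⟨d, hd, q⟩ := T.dec ht
      simpa using mul_mem_sup' (mem_sup_left (T := zpowers a) (l hd)) q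
    by_cases q : t ∈ S ⊓ Sub (zpowers (c * c)) a
    · exact k q
    · exact (mul_mem_cancel_left (mem_sup_left (RD B b hB))).1 (k (D.i2 b hB.aS t ht (fun r => hb r.2.2) q))
  have CZ : ∀ x ∈ S, x ∈ C(zpowers u ⊔ zpowers a) → x ∈ Z(S) := fun x hx k => ⟨hx, C_anti SD (by
    rw [C_sup]; exact ⟨k, hA.q.ess.sc.ab (hA.cent hx (mem_C.1 k a (mem_sup_right (mem_zpowers a))).symm)⟩)⟩
  have zD : ∀ K, Ess S K → ∀ n ∈ N(K), n * z * n⁻¹ ∈ zpowers u ⊔ zpowers a := fun K hK n hn => by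
    by_cases q : n ∈ N(PP S K)
    · rw [(T.all hK).fix hn q]; exact mem_sup_left zu
    · exact RD K _ ⟨T.all hK, n, ⟨hK.sc, hn, q⟩, rfl⟩
  have odd : ∀ g ∈ N(S), PiElt {2}ᶜ g → g ∈ C(S) := fun g hg o => by
    have of : ∀ x w, w ∈ S → g * x * g⁻¹ = w * x → g * w = w * g → w = 1 := fun x w hw e e' =>
      (h.pow hw).elim fun i k => odd_fix (odd_of_pi o) (by rw [pow_orderOf_eq_one, one_mul, mul_one]) e e' k
    have c1 : g ∈ C(zpowers u) := om_fix abel_zpowers (h.pi.of_le (zpowers_le.2 uS)) (nS hg).1 (odd_of_pi o)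
      (by rw [pow_orderOf_eq_one]; exact one_mem _) fun v hv k => (em (v = 1)).elim (fun e => by simp [e]) fun e => by
        rw [zp_uniq hv zu k D.z2 e hA.q.z1]; exact mul_inv_eq_iff_eq_mul.1 (T.fix hg)
    have c2 : g ∈ C(zpowers u ⊔ zpowers a) := by
      rw [C_sup, C_zpowers (x := a)]
      exact ⟨c1, mem_C1.2 (cm_one.1 (of a _ (zpowers_le.2 uS (nS hg).2) cm_eq (mem_C.1 c1 _ (nS hg).2).symm))⟩
    have c3 : g ∈ C(Z(S)) := mem_C_cm.2 fun x hx => h.gw (cm_mem (norm_Z le_rfl hg) hx) fun K hK n hn => by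
      obtain ⟨m, hm⟩ := id hK
      have i : EI S K z _ := ⟨T.all hK, m, hm, rfl⟩
      have gK : g ∈ N(K) := mem_N_of_finite fun y hy => i.cent (conj_mem_N hg (hK.sc.le hy)) (by
        have e := mem_C.1 c2 _ (RD K _ i)
        conv_lhs => rw [← mul_inv_eq_iff_eq_mul.2 e.symm, conj_mul, hK.sc.comm hy i.mem, ← conj_mul,
          mul_inv_eq_iff_eq_mul.2 e.symm])
      have jK := conj_mem_N (le_N hn) gK
      rw [cm_conj]
      refine i.q.cm_cent jK (by_contra fun q => i.q.far ⟨hK.sc, jK, q⟩ ?_)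
        (conj_mem_N hn (hK.sc.mem hx.1 (C_anti hK.sc.le hx.2)))
      rw [show n * g * n⁻¹ * z * (n * g * n⁻¹)⁻¹ = n * (g * (n⁻¹ * z * n⁻¹⁻¹)) * g⁻¹ * n⁻¹ by group,
        ← mem_C.1 c2 _ (zD K hK _ (inv_mem hn))]
      simpa [mul_assoc] using i.q.zU
    refine mem_C_cm.2 fun x hx => of x _ (cm_mem hg hx) cm_eq (mem_C.1 c3 _ (CZ _ (cm_mem hg hx) (mem_C.2 fun y hy => ?_))).symm
    have e := mem_C.1 c2 _ (conj_mem_N' (nD (le_N hx)) hy)
    calc y * ⁅g, x⁆ = y * g * x * g⁻¹ * x⁻¹ := by rw [commutatorElement_def]; group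
      _ = g * x * g⁻¹ * (g * (x⁻¹ * y * x)) * g⁻¹ * x⁻¹ := by rw [mem_C.1 c2 y hy]; group
      _ = _ := by rw [← e, commutatorElement_def]; group
  have der : ⁅S, S⁆ ≤ zpowers u ⊔ zpowers a := by
    have n1 := le_norm DS |>.trans nD
    have n2 := le_norm hA.q.ess.sc.le |>.trans nD
    refine (comm_mono SD SD).trans (comm_sup_le (comm_le_left (sup_le n1 n2)) (comm_sup_le' (comm_le_right n2) ?_ n1 n2) n1 n2)
    rw [hA.q.ess.sc.ab.der]; exact bot_le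
  have e : S = zpowers u ⊔ zpowers a := le_antisymm (h.foc (fun g hg x hx => ?_) fun K hK n hn v hv x hx => ?_) DS
  rotate_left
  · have p := h.two_mem (piPart_mem hg) piElt_piPart
    have q := mem_C.1 (odd _ (piPart_mem hg) piElt_piPart) _ (conj_mem_N' (le_N p) hx)
    rw [← piPart_mul_compl (π := {2}) (x := g), mul_inv_rev, show (piPart {2}ᶜ g)⁻¹ * (piPart {2} g)⁻¹ * x *
      (piPart {2} g * piPart {2}ᶜ g) = (piPart {2}ᶜ g)⁻¹ * ((piPart {2} g)⁻¹ * x * piPart {2} g * piPart {2}ᶜ g) by group, q]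
    simpa [commutatorElement_def, mul_assoc] using der (commutator_mem_commutator (inv_mem hx) (inv_mem p))
  · rw [show x⁻¹ * ((n * v * n⁻¹)⁻¹ * x * (n * v * n⁻¹)) = (n * ⁅v⁻¹, n⁻¹ * x⁻¹ * n⁆ * n⁻¹)⁻¹ by
      rw [commutatorElement_def]; group]
    rcases (T.all hK).cm _ (inv_mem hv) _ (conj_mem_N' hn (inv_mem hx)) with q | q <;> rw [q]
    · simp
    · exact inv_mem (zD K hK n hn)
  have an : a ∉ zpowers u := fun k => D.c2 (by
    have := D.ainv (mem_zpowers c)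
    rw [zp_comm k (l (mem_zpowers c)), mul_inv_cancel_right] at this
    nth_rw 1 [this]; group)
  have a1 : a ≠ 1 := fun k => an (k ▸ one_mem _)
  have o2 : Nat.card (zpowers a) = 2 := by rw [card_zpowers', orderOf_eq_prime ((sq a).trans hA.a2) a1]
  have := NeZero.mk (orderOf_pos u).ne'
  refine ⟨orderOf u, ?_, H25.equiv_dih ?_ (a := ⟨u, uS⟩) (b := ⟨a, hA.aS⟩) (orderOf_mk _ _) (Subtype.ext hA.a2)
    (Subtype.ext (by rwa [ai] at ui)) fun ⟨i, k⟩ => an ⟨i, congrArg Subtype.val k⟩⟩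
  · rw [← card_zpowers']; exact one_lt_card (ne_bot_of_mem zu hA.q.z1)
  · rw [e, Nrm2.card_sup_of_disj (.inr aN), o2, card_zpowers', mul_comm]
    rw [inf_comm]; exact prime_TI (o2 ▸ Nat.prime_two) fun k => an (k (mem_zpowers a))

end H22.AI
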