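import Cfsg.Agent.H22.AI3

/-! Groups with abelian Sylow `2`-intersections, part 4: in a perfect group without nontrivial strongly closed abelian
`2`-subgroup the Sylow `2`-subgroup is dihedral or of class `2` (`Cx.main`). -/

set_option autoImplicit false
set_option linter.unusedSectionVars false
open Cfsg H18 Subgroup
open scoped commutatorElement

namespace H22.AI
variable {G : Type*} [Group G] [Finite G] {S A B K M W : Subgroup G} {a b c d e f g k n s t u v w x y z : G}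

theorem Ess.off (h : Ess S A) (hB : SC S B) (h1 : B ≤ N(A)) (h2 : A ≤ N(B)) (h3 : Nat.card A ≤ Nat.card B) (h4 : A ≠ B) :
    FF S A A B := by
  refine ⟨h, le_rfl, le_rfl, fun _ _ => id, fun x hx => U_le_PP ⟨hB.le hx, h1 hx⟩, fun k => h4 (hB.eq_of_le h.sc.le h.sc.ab
    fun x hx => h.sc.mem (hB.le hx) (k hx)), fun e he v hv => hB.ab ?_, ?_⟩
  · rw [← commutatorElement_inv]; exact inv_mem (cm_mem (h2 hv) he)
  have e : C(A) ⊓ B = A ⊓ C(B) := le_antisymm (fun x hx => ⟨h.sc.mem (hB.le hx.2) hx.1, hB.ab hx.2⟩)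
    fun x hx => ⟨h.sc.ab hx.1, hB.mem (h.sc.le hx.1) hx.2⟩
  have := card_mul_relIndex' (A := C(A)) (B := B)
  rw [e] at this
  exact Nat.le_of_mul_le_mul_left ((card_mul_relIndex inf_le_left).trans_le (h3.trans this.ge)) card_pos'

theorem FF.dec' (h : FF S A A B) (hB : B ≤ S) (hu : u ∈ S ⊓ N(A)) : ∃ b ∈ B, ∃ x ∈ A, u = b * x :=
  have ⟨e, he, k⟩ := h.syl (U_le_PP hu)
  ⟨e, he, _, inv_mem (h.ess.sc.mem (mul_mem (inv_mem hu.1) (hB he)) k), by group⟩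

theorem der_sup (h : B ≤ N(A)) (ab : Abel B) : ⁅A ⊔ B, A ⊔ B⁆ ≤ A :=
  comm_sup_le (comm_le_left (sup_le le_N h)) (comm_sup_le' (comm_le_right h) (ab.der.trans_le bot_le) le_N h) le_N h

theorem le_or_le (h : ∀ x ∈ K, x ∈ A ∨ x ∈ B) : K ≤ A ∨ K ≤ B := by
  by_contra! k
  obtain ⟨x, hx, k1⟩ := SetLike.not_le_iff_exists.1 k.1
  obtain ⟨y, hy, k2⟩ := SetLike.not_le_iff_exists.1 k.2
  rcases h _ (mul_mem hx hy) with q | q
  · exact k1 ((mul_mem_cancel_right ((h y hy).resolve_right k2)).1 q)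
  · exact k2 ((mul_mem_cancel_left ((h x hx).resolve_left k1)).1 q)

theorem Cx.normal (h : Cx S) (hn : ∀ A, Ess S A → S ≤ N(A)) : ⁅S, S⁆ ≤ C(S) := by
  have k : ∀ A B, Ess S A → Ess S B → Nat.card A ≤ Nat.card B → A ≠ B → ⁅S, S⁆ ≤ C(S) := fun A B hA hB l ne => by
    have n1 := hB.sc.le.trans (hn A hA)
    have n2 := hA.sc.le.trans (hn B hB)
    have e : S ≤ B ⊔ A := fun u hu => by
      obtain ⟨b, hb, x, hx, rfl⟩ := (hA.off hB.sc n1 n2 l ne).dec' hB.sc.le ⟨hu, hn A hA hu⟩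
      exact mul_mem_sup' hb hx
    refine (comm_mono e e).trans (le_trans (cent_sup ((der_sup n2 hA.sc.ab).trans hB.sc.ab) ?_) (C_anti e))
    rw [sup_comm]; exact (der_sup n1 hB.sc.ab).trans hA.sc.ab
  by_contra q
  have u : ∀ A B, Ess S A → Ess S B → A = B := fun A B hA hB => by_contra fun ne =>
    (le_total _ _).elim (fun l => q (k A B hA hB l ne)) fun l => q (k B A hB hA l (Ne.symm ne))
  have s0 : S ≠ ⊥ := fun e => h.na (e ▸ abel_bot)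
  by_cases ex : ∃ A, Ess S A
  · obtain ⟨A, hA⟩ := ex
    have := h.scl hA.sc.le hA.sc.ab (fun g hg => mem_N_iff_cj.2 (u _ _ (hA.cj hg) hA)) fun B hB n hn v hv x hx _ =>
      u B A hB hA ▸ conj_mem_N' (conj_mem_N (le_N hn) hv.2) hx
    subst this
    exact s0 (eq_bot_iff.2 fun x hx => hA.sc.mem hx (mem_C.2 fun y hy => by rw [mem_bot.1 hy]; simp))
  · obtain ⟨w, hw, w1⟩ := exists_mem_ne_one' (h.pi.nil.Z_ne_bot s0)
    exact w1 (h.gw hw fun A hA => absurd ⟨A, hA⟩ ex)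

/-- index `2` in the normalizer -/
def I2 (S A : Subgroup G) : Prop := ∀ u ∈ S ⊓ N(A), ∀ v ∈ S ⊓ N(A), u ∉ A → v ∉ A → u * v ∈ A

/-- a non-normal essential subgroup -/
structure NN (S A : Subgroup G) (s : G) : Prop where
  ess : Ess S A
  sS : s ∈ S
  sN : s ∈ N(S ⊓ N(A))
  ns : s ∉ N(A)

namespace NN
variable (h : NN S A s)
include h
theorem eB : Ess S (cj s A) := h.ess.cj (le_N h.sS)
theorem UB : S ⊓ N(cj s A) = S ⊓ N(A) := by rw [← U_cj (le_N h.sS), cj_eq_self h.sN]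
theorem BU : cj s A ≤ S ⊓ N(A) := h.UB ▸ h.eB.sc.lt.le
theorem ne : A ≠ cj s A := fun e => h.ns (mem_N_iff_cj.2 e.symm)
theorem ff : FF S A A (cj s A) := h.ess.off h.eB.sc (h.BU.trans inf_le_right)
  ((h.ess.sc.lt.le.trans h.UB.ge).trans inf_le_right) card_cj.ge h.ne
theorem dec (hu : u ∈ S ⊓ N(A)) : ∃ b ∈ cj s A, ∃ x ∈ A, u = b * x := h.ff.dec' h.eB.sc.le hu
theorem sup : S ⊓ N(A) ≤ cj s A ⊔ A := fun _ hu => have ⟨_, hb, _, hx, e⟩ := h.dec hu; e ▸ mul_mem_sup' hb hx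
theorem ZU (h1 : x ∈ A) (h2 : x ∈ cj s A) : x ∈ C(S ⊓ N(A)) :=
  C_anti h.sup (by rw [C_sup]; exact ⟨h.eB.sc.ab h2, h.ess.sc.ab h1⟩)
theorem c3 (hx : x ∈ A) (h1 : x ∉ cj s A) (hb : b ∈ cj s A) (h2 : b ∉ A) : b * x ≠ x * b := fun e =>
  h2 (h.ess.sc.mem (h.eB.sc.le hb) (h.ff.c3 hx (fun k => h1 (h.eB.sc.mem (h.ess.sc.le hx) k)) hb e))

theorem q2 (i : I2 S A) : ∃ z, Q2 S A z := by
  obtain ⟨u, hu, h1⟩ := SetLike.not_le_iff_exists.1 fun k => h.ne (eq_of_card_ge k card_cj.ge).symm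
  obtain ⟨x, hx, h2⟩ := SetLike.not_le_iff_exists.1 fun k => h.ne (eq_of_card_ge k card_cj.le)
  refine ⟨⁅u, x⁆, h.ess, fun k => h.c3 hx h2 hu h1 (cm_one.1 k), i, fun v hv y hy => ?_⟩
  by_cases q : v ∈ A
  · exact .inl (cm_one.2 (h.ess.sc.comm q hy))
  have := i _ (inv_mem (h.BU hu)) v hv (fun r => h1 (inv_mem_iff.1 r)) q
  rw [← mul_inv_cancel_left u v, cm_ml, cm_one.2 (h.ess.sc.comm this hy), mul_one, mul_inv_cancel, one_mul]
  by_cases r : y ∈ cj s A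
  · exact .inl (cm_one.2 (h.eB.sc.comm hu r))
  have l := h.ess.sc.lt.le
  have := i _ (conj_mem_N' h.sN (l (inv_mem hx))) _ (conj_mem_N' h.sN (l hy)) (fun k => h2 (inv_mem_iff.1 (mem_cj.2 k)))
    fun k => r (mem_cj.2 k)
  rw [show s⁻¹ * x⁻¹ * s * (s⁻¹ * y * s) = s⁻¹ * (x⁻¹ * y) * s by group, ← mem_cj] at this
  rw [← mul_inv_cancel_left x y, h.ff.cm_mul (h.BU hu).2 hx (mul_mem (inv_mem hx) hy), cm_one.2 (h.eB.sc.comm hu this), mul_one]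
  exact .inr rfl

theorem inv_mem_or (hx : x ∈ S ⊓ N(A)) (h1 : x * x = 1) : x ∈ A ∨ x ∈ cj s A := by
  obtain ⟨b, hb, a, ha, rfl⟩ := h.dec hx
  by_contra! k
  obtain ⟨v, hv, e⟩ := mem_cj'.1 hb
  obtain ⟨z, hz, e'⟩ := h.ff.sq' hv
  have hy : s * z * s⁻¹ ∈ A := h.ess.sc.mem (conj_mem_N (le_N h.sS) (h.ess.sc.le hz.1)) (C_anti h.ess.sc.lt.le
    (conj_mem_N (N_le_N_C h.sN) (h.ZU hz.1 (h.eB.sc.mem (h.ess.sc.le hz.1) hz.2))))
  have bb : b * b = s * z * s⁻¹ * (s * z * s⁻¹) := by rw [e, conj_mul, conj_mul, e']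
  obtain ⟨n, hn⟩ := h.ess
  refine k.1 (mul_mem (hn.sc.mem (h.eB.sc.le hb) (h.ff.c4 hn ha (fun q => k.2 (mul_mem hb
    (h.eB.sc.mem (hn.sc.le ha) q))) hb ?_)) ha)
  have : ⁅b, a⁆ = (b * b * (a * a))⁻¹ := by
    rw [eq_inv_iff_mul_eq_one, ← mul_assoc (b * b), hn.sc.comm (bb.symm ▸ mul_mem hy hy : b * b ∈ A) ha, ← h1, commutatorElement_def]; group
  rw [this, bb]
  exact inv_mem (mul_mem (h.ff.sq hn.mem hy) (h.ff.sq hn.mem ha))

theorem ess_or (hK : Ess S K) (l : Om K ≤ S ⊓ N(A)) : K = A ∨ K = cj s A := by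
  have k : ∀ B, SC S B → Om K ≤ B → K = B := fun B hB q => hB.eq_of_le hK.sc.le hK.sc.ab
    fun x hx => hK.cent_om (hB.le hx) (C_anti q (hB.ab hx))
  exact (le_or_le fun x hx => h.inv_mem_or (l hx) ((mem_Om hK.sc.ab).1 hx).2).imp (k _ h.ess.sc) (k _ h.eB.sc)

theorem swap (ht : t ∈ S ⊓ N(S ⊓ N(A))) (hn : t ∉ S ⊓ N(A)) : cj t A = cj s A ∧ cj t (cj s A) = A := by
  have e := (h.ess_or (h.ess.cj (le_N ht.1)) (Om_le.trans (cj_le_of_mem_N h.ess.sc.lt.le ht.2))).resolve_left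
    fun k => hn ⟨ht.1, mem_N_iff_cj.2 k⟩
  refine ⟨e, (h.ess_or (h.eB.cj (le_N ht.1)) (Om_le.trans (cj_le_of_mem_N h.BU ht.2))).resolve_right fun k => h.ne ?_⟩
  simpa [cj_cj] using cj_eq_iff.1 (e.trans k.symm)

theorem i2 : I2 S (S ⊓ N(A)) := fun t ht r hr h1 h2 =>
  ⟨mul_mem ht.1 hr.1, mem_N_iff_cj.2 (by rw [cj_mul, (h.swap hr h2).1, (h.swap ht h1).2])⟩

theorem omega (hK : Ess S K) (h1 : K ≠ A) (h2 : K ≠ cj s A) (l : S ⊓ N(K) ≤ N(S ⊓ N(A))) : I2 S K := by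
  obtain ⟨e, he, q⟩ := SetLike.not_le_iff_exists.1 fun k => (h.ess_or hK k).elim h1 h2
  have l' : S ⊓ N(K) ≤ S ⊓ N(S ⊓ N(A)) := le_inf inf_le_left l
  have m : Om K ≤ S ⊓ N(S ⊓ N(A)) := (Om_le.trans hK.sc.lt.le).trans l'
  have sw := h.swap (m he) q
  have c : ∀ v ∈ Om K, v ∈ S ⊓ N(A) → v ∈ C(S ⊓ N(K)) := fun v hv hU => by
    have p := hK.sc.comm (Om_le he) (Om_le hv)
    have p' : ∀ D, v ∈ D → v ∈ cj e D := fun D hD => by
      have := conj_mem_cj (g := e) hD; rwa [p, mul_inv_cancel_right] at this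
    have : v ∈ C(S ⊓ N(A)) := (h.inv_mem_or hU ((mem_Om hK.sc.ab).1 hv).2).elim
      (fun k => h.ZU k (sw.1 ▸ p' _ k)) fun k => h.ZU (sw.2 ▸ p' _ k) k
    refine mem_C.2 fun u hu => (em (u ∈ S ⊓ N(A))).elim (mem_C.1 this u) fun r => ?_
    rw [← mul_inv_cancel_left e u, mul_assoc, mem_C.1 this _ (h.i2 _ (inv_mem (m he)) u (l' hu)
      (fun k => q (inv_mem_iff.1 k)) r), ← mul_assoc, p, mul_assoc]
  have nE : ¬ S ⊓ N(K) ≤ C(K) := fun k => hK.sc.lt.not_ge fun x hx => hK.sc.mem hx.1 (k hx)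
  have le2 : (Om K ⊓ C(S ⊓ N(K))).relIndex (Om K) ≤ 2 := relIndex_le_two fun x hx y hy a b =>
    mem_inf.2 ⟨mul_mem hx hy, c _ (mul_mem hx hy)
      (h.i2 x (m hx) y (m hy) (fun k => a ⟨hx, c x hx k⟩) fun k => b ⟨hy, c y hy k⟩)⟩
  have F : FF S K (Om K) (S ⊓ N(K)) := by
    refine ⟨hK, Om_le, N_Om, fun _ => hK.faith, U_le_PP, nE, fun u hu v hv => c _ (cm_mem (N_Om hu.2) hv) ?_,
      le2.trans (one_lt_relIndex nE)⟩
    by_cases r : v ∈ S ⊓ N(A)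
    · exact cm_mem (l hu) r
    · exact h.i2 _ (conj_mem_N (le_N (l' hu)) (m hv)) _ (inv_mem (m hv))
        (fun k => r (by simpa [mul_assoc] using conj_mem_N' (l hu) k)) fun k => r (inv_mem_iff.1 k)
  intro u hu v hv a b
  exact hK.sc.mem (mul_mem hu.1 hv.1) (i2_of ((F.idx ▸ le2).antisymm (one_lt_relIndex nE)) hu hv
    (fun k => a (hK.sc.mem hu.1 k)) fun k => b (hK.sc.mem hv.1 k))

theorem false (hx : Cx S) (H : ∀ K, Ess S K → I2 S K → S ≤ N(K)) : False := by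
  have AU := h.ess.sc.lt.le
  have nU : ∀ g : G, cj g A ≤ S ⊓ N(A) → cj g (cj s A) ≤ S ⊓ N(A) → g ∈ N(S ⊓ N(A)) := fun g a b =>
    mem_N_of_cj_le ((cj_mono h.sup).trans (by rw [cj_sup]; exact sup_le b a))
  have n1 : S ≤ N(S ⊓ N(A)) := by
    refine (hx.pi.nil.eq_of_norm_le (K := S ⊓ N(S ⊓ N(A))) inf_le_left fun t ht => ?_).ge.trans inf_le_right
    have k : ∀ K, Ess S K → S ⊓ N(K) = S ⊓ N(A) → cj t K ≤ S ⊓ N(A) := fun K hK e => by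
      have e' : S ⊓ N(cj t K) = cj t (S ⊓ N(A)) := by rw [← U_cj (le_N ht.1), e]
      by_cases a : cj t K = A
      · exact a.trans_le AU
      by_cases b : cj t K = cj s A
      · exact b.trans_le h.BU
      have := H _ (hK.cj (le_N ht.1)) (h.omega (hK.cj (le_N ht.1)) a b
        (e'.trans_le ((cj_le_of_mem_N (le_inf inf_le_left le_N) ht.2).trans inf_le_right)))
      exact absurd (conj_mem_cj_iff.1 (e'.le ⟨conj_mem_N (le_N ht.1) h.sS, this (conj_mem_N (le_N ht.1) h.sS)⟩)).2 h.ns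
    exact ⟨ht.1, nU t (k A h.ess rfl) (k _ h.eB h.UB)⟩
  have l : ∀ K, Ess S K → K ≤ S ⊓ N(A) := fun K hK => by
    by_cases a : K = A
    · exact a.trans_le AU
    by_cases b : K = cj s A
    · exact b.trans_le h.BU
    have i := h.omega hK a b (inf_le_left.trans n1)
    have nK := H K hK i
    have k : ∀ b ∈ cj s A, b ∉ A → b ∉ K := fun b hb h1 h2 => h.c3 (mem_cj.1 hb) (fun q => h1 (by
      rw [← (h.swap ⟨h.sS, h.sN⟩ fun r => h.ns r.2).2]; exact mem_cj.2 q)) hb h1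
      (hK.sc.comm h2 (conj_mem_N' (nK h.sS) h2))
    refine absurd (H A h.ess fun u hu v hv h1 h2 => ?_) fun q => h.ns (q h.sS)
    obtain ⟨p, hp, x, hx, rfl⟩ := h.dec hu
    obtain ⟨q, hq, y, hy, rfl⟩ := h.dec hv
    have m : ∀ b ∈ cj s A, b ∈ S ⊓ N(K) := fun b hb => ⟨h.eB.sc.le hb, nK (h.eB.sc.le hb)⟩
    rw [show p * x * (q * y) = p * q * (q⁻¹ * x * q * y) by group]
    exact mul_mem (by_contra fun r => k _ (mul_mem hp hq) r (i p (m p hp) q (m q hq) (k p hp fun r => h1 (mul_mem r hx))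
      (k q hq fun r => h2 (mul_mem r hy)))) (mul_mem (conj_mem_N' (h.BU hq).2 hx) hy)
  exact h.ns (hx.sc2 (fun x hx y hy => h.i2 x ⟨hx, n1 hx⟩ y ⟨hy, n1 hy⟩)
    (fun g hg => nU g (l _ (h.ess.cj hg)) (l _ (h.eB.cj hg))) l h.sS).2
end NN

theorem Ess.nn (h : Ess S A) (hn : ¬ S ≤ N(A)) : ∃ s, NN S A s :=
  have ⟨s, hs, k⟩ := SetLike.exists_of_lt (h.sc.ctx.pi.nil.lt_norm (inf_lt_left.2 hn))
  ⟨s, h, hs.1, hs.2, fun q => k ⟨hs.1, q⟩⟩

theorem Cx.main (h : Cx S) : (∃ m : ℕ, 2 ≤ m ∧ Nonempty (S ≃* DihedralGroup m)) ∨ ⁅S, S⁆ ≤ C(S) := by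
  by_cases H : ∀ K, Ess S K → I2 S K → S ≤ N(K)
  · exact .inr (h.normal fun A hA => by_contra fun k => (hA.nn k).elim fun _ q => q.false h H)
  push Not at H
  obtain ⟨A, hA, i, k⟩ := H
  obtain ⟨s, q⟩ := hA.nn k
  obtain ⟨z, hz⟩ := q.q2 i
  obtain ⟨n, hn⟩ := hA
  exact .inl (h.dihedral ⟨hz, n, hn, rfl⟩ k)

end H22.AI
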