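import Cfsg.Agent.H9.Cond

/-! Any two involutions of `PSL(2,q)`, `q ≥ 4`, have a common neighbour in the odd-product graph (`common`). -/

set_option autoImplicit false

namespace H22.Lfg
open Matrix Subgroup
open scoped MatrixGroups

variable {F : Type*} [Field F]

/-- the projection -/
abbrev pr : SL(2, F) →* PSL(2, F) := QuotientGroup.mk' _

theorem pr_eq_one {N : SL(2, F)} : pr N = 1 ↔ N 0 1 = 0 ∧ N 1 0 = 0 ∧ N 0 0 = N 1 1 := by
  rw [QuotientGroup.mk'_apply, QuotientGroup.eq_one_iff, Matrix.SpecialLinearGroup.mem_center_iff]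
  constructor
  · rintro ⟨r, -, e⟩
    have k : ∀ i j, N i j = scalar (Fin 2) r i j := fun i j => by rw [e]
    simp [k]
  · rintro ⟨h1, h2, h3⟩
    have d := N.det_coe
    rw [det_fin_two] at d
    refine ⟨N 0 0, by rw [Fintype.card_fin]; rw [h1, ← h3] at d; linear_combination d, ?_⟩
    ext i j; fin_cases i <;> fin_cases j <;> simp [h1, h2, h3]

theorem tr0 {N : SL(2, F)} (h : orderOf (pr N) = 2) : N 1 1 = -N 0 0 := by
  have e : pr (N * N) = 1 := by rw [map_mul, ← pow_two]; exact orderOf_dvd_iff_pow_eq_one.1 h.dvd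
  simp only [pr_eq_one, Matrix.SpecialLinearGroup.coe_mul, Matrix.mul_apply, Fin.sum_univ_two] at e
  by_contra n
  have m : N 0 0 + N 1 1 ≠ 0 := fun k => n (by linear_combination k)
  rw [pr_eq_one.2 ⟨mul_right_cancel₀ m (by linear_combination e.1), mul_right_cancel₀ m (by linear_combination e.2.1),
    mul_right_cancel₀ m (by linear_combination e.2.2)⟩, orderOf_one] at h
  omega

theorem sq1 {N : SL(2, F)} (h : N 1 1 = -N 0 0) : pr N * pr N = 1 := by
  rw [← map_mul]
  simp only [pr_eq_one, Matrix.SpecialLinearGroup.coe_mul, Matrix.mul_apply, Fin.sum_univ_two, h]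
  exact ⟨by ring, by ring, by ring⟩

theorem ch (M : SL(2, F)) : (M : Matrix (Fin 2) (Fin 2) F) * M = trace (M : Matrix (Fin 2) (Fin 2) F) • M - 1 := by
  have d := M.det_coe
  rw [det_fin_two] at d
  ext i j; fin_cases i <;> fin_cases j <;> simp [Matrix.mul_apply, Fin.sum_univ_two, trace_fin_two]
  · linear_combination -d
  · ring
  · ring
  · linear_combination -d

theorem odd_of [Finite F] {M : SL(2, F)} (h : ∀ k, orderOf (pr (M ^ k)) ≠ 2) : Odd (orderOf (pr M)) :=
  Nat.not_even_iff_odd.1 fun e => h (orderOf (pr M) / 2) (by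
    rw [map_pow]; exact orderOf_pow_orderOf_div (orderOf_pos _).ne' e.two_dvd)

theorem odd_split [Finite F] {M : SL(2, F)} {l : F} (l0 : l ≠ 0) (h : trace (M : Matrix (Fin 2) (Fin 2) F) = l + l⁻¹)
    (hl : ∀ k, l ^ k + l⁻¹ ^ k ≠ 0) : Odd (orderOf (pr M)) := odd_of fun k e => hl k (by
  have t : ∀ k, trace ((M : Matrix (Fin 2) (Fin 2) F) ^ k) = l ^ k + l⁻¹ ^ k := fun k => by
    induction k using Nat.twoStepInduction with
    | zero => simp; norm_num
    | one => simpa
    | more k h1 h2 =>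
      rw [pow_succ, pow_succ, mul_assoc, ch, mul_sub, Matrix.mul_smul, trace_sub, trace_smul, mul_one, ← pow_succ, h1, h2, h]
      simp only [smul_eq_mul, pow_succ]
      field_simp; ring
  rw [← t, ← Matrix.SpecialLinearGroup.coe_pow, trace_fin_two, tr0 e, add_neg_cancel])

theorem odd_two [Finite F] (h2 : (2 : F) = 0) {M : SL(2, F)} (h : trace (M : Matrix (Fin 2) (Fin 2) F) ≠ 0) :
    Odd (orderOf (pr M)) := odd_of fun k e => by
  have t : ∀ k, ∃ a b : F, (M : Matrix (Fin 2) (Fin 2) F) ^ k = a • M + b • 1 := fun k => by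
    induction k with
    | zero => exact ⟨0, 1, by simp⟩
    | succ k ih =>
      obtain ⟨a, b, ih⟩ := ih
      exact ⟨a * trace (M : Matrix (Fin 2) (Fin 2) F) + b, -a, by
        rw [pow_succ, ih, add_mul, Matrix.smul_mul, Matrix.smul_mul, ch, one_mul]; module⟩
  obtain ⟨a, b, t⟩ := t k
  have k1 : ∀ i j, (M ^ k) i j = a * M i j + b * (1 : Matrix (Fin 2) (Fin 2) F) i j := fun i j => by
    rw [Matrix.SpecialLinearGroup.coe_pow, t]; simp
  have e1 := tr0 e
  rw [trace_fin_two] at h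
  simp only [k1, one_apply_eq] at e1
  obtain rfl : a = 0 := mul_right_cancel₀ h (by linear_combination e1 - b * h2)
  rw [pr_eq_one.2 (by simp [k1]), orderOf_one] at e
  omega

theorem quad [Fintype F] (h : ¬ IsSquare (-1 : F)) (h4 : 4 ≤ Fintype.card F) (x : F) : ∃ l m w : F, l ≠ 0 ∧ m ≠ 0 ∧
    w ^ 2 = 4 - x ^ 2 - (l + l⁻¹) ^ 2 - (m + m⁻¹) ^ 2 - x * (l + l⁻¹) * (m + m⁻¹) := by
  classical
  have h2 : ringChar F ≠ 2 := fun e => h (FiniteField.isSquare_of_char_two e _)
  have t0 : (2 : F) ≠ 0 := Ring.two_ne_zero h2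
  by_contra c
  have m1 : quadraticChar F (-1) = -1 := quadraticChar_neg_one_iff_not_isSquare.2 h
  have k : ∀ u v : F, u ≠ 0 → v ≠ 0 → quadraticChar F u = quadraticChar F v →
      quadraticChar F (u ^ 2 + x * u + 1) * quadraticChar F (v ^ 2 + x * v + 1) = 1 := fun u v u0 v0 e => by
    obtain ⟨l, hl⟩ : IsSquare (u * v) := (quadraticChar_one_iff_isSquare (mul_ne_zero u0 v0)).1 (by
      rw [map_mul, e, ← pow_two, quadraticChar_sq_one v0])
    have l0 : l ≠ 0 := fun e => mul_ne_zero u0 v0 (by rw [hl, e, mul_zero])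
    obtain rfl : v = l * l / u := by field_simp; linear_combination hl
    have : quadraticChar F (-1 * ((u ^ 2 + x * u + 1) * ((l * l / u) ^ 2 + x * (l * l / u) + 1))) = -1 :=
      quadraticChar_neg_one_iff_not_isSquare.2 fun ⟨w, hw⟩ => c ⟨l, u / l, w / l, l0, div_ne_zero u0 l0, by
        rw [div_pow, pow_two w, ← hw]; field_simp; ring⟩
    rw [map_mul, map_mul, m1] at this; omega
  obtain ⟨a, b, ab⟩ := FiniteField.exists_root_sum_quadratic (f := Polynomial.X ^ 2 + Polynomial.C x * Polynomial.X + 1)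
    (g := Polynomial.X ^ 2) (by compute_degree!) (by simp) (FiniteField.odd_card_of_char_ne_two h2)
  simp only [Polynomial.eval_add, Polynomial.eval_pow, Polynomial.eval_X, Polynomial.eval_mul, Polynomial.eval_C,
    Polynomial.eval_one] at ab
  have a0 : a ≠ 0 := fun e => h ⟨b, by rw [e] at ab; linear_combination -ab⟩
  have nz : ∀ u : F, u ^ 2 + x * u + 1 ≠ 0 := fun u e => by
    have := k u u (fun d => by simp [d] at e) (fun d => by simp [d] at e) rfl
    rw [e] at this; simp at this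
  have qa : quadraticChar F (a ^ 2 + x * a + 1) = -1 := by
    rw [show a ^ 2 + x * a + 1 = -1 * b ^ 2 by linear_combination ab, map_mul, m1, quadraticChar_sq_one' fun e =>
      nz a (by rw [e] at ab; linear_combination ab)]; rfl
  obtain ⟨n, n0, qn⟩ : ∃ n : F, n ≠ 0 ∧ quadraticChar F (n ^ 2 + x * n + 1) = 1 := by
    by_cases x0 : x = 0
    · obtain ⟨l, hl⟩ : ∃ l : F, l ∉ ({0, 1, -1} : Finset F) := by
        by_contra d; push Not at d
        have := Finset.card_le_card (fun l _ => d l : Finset.univ ⊆ _)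
        have := Finset.card_le_three (a := (0 : F)) (b := 1) (c := -1)
        rw [Finset.card_univ] at *; omega
      simp only [Finset.mem_insert, Finset.mem_singleton, not_or] at hl
      have e : ((l - l⁻¹) / 2) ^ 2 + x * ((l - l⁻¹) / 2) + 1 = ((l + l⁻¹) / 2) ^ 2 := by
        have := hl.1; rw [x0]; field_simp; ring
      refine ⟨(l - l⁻¹) / 2, div_ne_zero (fun d => ?_) t0, by
        rw [e]; exact quadraticChar_sq_one' fun d => nz _ (by rw [e, d]; ring)⟩
      have : (l - 1) * (l + 1) = 0 := by have := hl.1; field_simp at d; linear_combination d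
      rcases mul_eq_zero.1 this with d | d
      exacts [hl.2.1 (by linear_combination d), hl.2.2 (by linear_combination d)]
    · exact ⟨-x, neg_ne_zero.2 x0, by rw [show (-x) ^ 2 + x * -x + 1 = 1 by ring, map_one]⟩
  have q1 : quadraticChar F ((1 : F) ^ 2 + x * 1 + 1) * quadraticChar F ((-1 : F) ^ 2 + x * -1 + 1) = -1 := by
    have p1 := fun e => k a 1 a0 one_ne_zero (Eq.trans e (map_one _).symm)
    have p2 := fun e => k a (-1) a0 (by simp) (Eq.trans e m1.symm)
    have p3 := fun e => k n 1 n0 one_ne_zero (Eq.trans e (map_one _).symm)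
    have p4 := fun e => k n (-1) n0 (by simp) (Eq.trans e m1.symm)
    have p5 := k a n a0 n0
    rw [qa] at p1 p2 p5; rw [qn] at p3 p4 p5
    rcases quadraticChar_dichotomy a0 with e | e <;> rcases quadraticChar_dichotomy n0 with f | f
    · have := p5 (e.trans f.symm); omega
    · have := p1 e; have := p4 f; nlinarith
    · have := p2 e; have := p3 f; nlinarith
    · have := p5 (e.trans f.symm); omega
  obtain ⟨d, hd⟩ : IsSquare (-1 * (((1 : F) ^ 2 + x * 1 + 1) * ((-1 : F) ^ 2 + x * -1 + 1))) :=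
    (quadraticChar_one_iff_isSquare (mul_ne_zero (by simp) (mul_ne_zero (nz _) (nz _)))).1 (by
      rw [map_mul, map_mul, q1, m1]; rfl)
  exact nz ((d - x) / 2) (by field_simp; linear_combination -hd)

theorem common [Fintype F] (h4 : 4 ≤ Fintype.card F) {x y : PSL(2, F)} (hx : orderOf x = 2) (hy : orderOf y = 2) :
    ∃ z, z * z = 1 ∧ Odd (orderOf (x * z)) ∧ Odd (orderOf (y * z)) := by
  obtain ⟨A, rfl⟩ := QuotientGroup.mk'_surjective _ x
  obtain ⟨B, rfl⟩ := QuotientGroup.mk'_surjective _ y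
  have tA := tr0 hx; have tB := tr0 hy
  have dA := A.det_coe; have dB := B.det_coe
  rw [det_fin_two, tA] at dA; rw [det_fin_two, tB] at dB
  have key : ∀ e f g : F, e * -e - f * g = 1 → ∃ C : SL(2, F), pr C * pr C = 1 ∧
      trace (A * C : SL(2, F)).1 = 2 * A 0 0 * e + A 0 1 * g + A 1 0 * f ∧
      trace (B * C : SL(2, F)).1 = 2 * B 0 0 * e + B 0 1 * g + B 1 0 * f := fun e f g d =>
    ⟨⟨!![e, f; g, -e], by rw [det_fin_two_of, d]⟩, sq1 (by simp), by
      change trace (A.1 * !![e, f; g, -e]) = _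
      simp [trace_fin_two, Matrix.mul_apply, Fin.sum_univ_two, tA]; ring, by
      change trace (B.1 * !![e, f; g, -e]) = _
      simp [trace_fin_two, Matrix.mul_apply, Fin.sum_univ_two, tB]; ring⟩
  by_cases h2 : (2 : F) = 0
  · have c2 : ringChar F = 2 := by
      have := (ringChar.spec F 2).1 (by exact_mod_cast h2)
      exact ((Nat.dvd_prime Nat.prime_two).1 this).resolve_left CharP.ringChar_ne_one
    have nz : ∀ N : SL(2, F), orderOf (pr N) = 2 → ¬ (N 0 1 = 0 ∧ N 1 0 = 0) := fun N o e => by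
      rw [pr_eq_one.2 ⟨e.1, e.2, by rw [tr0 o]; linear_combination N 0 0 * h2⟩, orderOf_one] at o; omega
    obtain ⟨f, g, p, q⟩ : ∃ f g : F, A 0 1 * g + A 1 0 * f ≠ 0 ∧ B 0 1 * g + B 1 0 * f ≠ 0 := by
      by_contra c; push Not at c
      have := nz A hx; have := nz B hy
      have := c 1 0; have := c 0 1; have := c 1 1
      grind
    obtain ⟨e, he⟩ := FiniteField.isSquare_of_char_two c2 (-(1 + f * g))
    obtain ⟨C, c1, c2, c3⟩ := key e f g (by linear_combination he)
    exact ⟨pr C, c1, map_mul pr A C ▸ odd_two h2 (by rwa [c2, h2, zero_mul, zero_mul, zero_add]),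
      map_mul pr B C ▸ odd_two h2 (by rwa [c3, h2, zero_mul, zero_mul, zero_add])⟩
  have o1 : ∀ k : ℕ, (1 : F) ^ k + 1⁻¹ ^ k ≠ 0 := fun k => by rwa [inv_one, one_pow, one_add_one_eq_two]
  have tAB : trace (A * B : SL(2, F)).1 = 2 * A 0 0 * B 0 0 + A 0 1 * B 1 0 + A 1 0 * B 0 1 := by
    simp [trace_fin_two, Matrix.mul_apply, Fin.sum_univ_two, tA, tB]; ring
  generalize hX : 2 * A 0 0 * B 0 0 + A 0 1 * B 1 0 + A 1 0 * B 0 1 = X at tAB
  by_cases D : 4 - X ^ 2 = 0
  · refine ⟨pr B, sq1 tB, ?_, by rw [sq1 tB, orderOf_one]; exact odd_one⟩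
    rw [← map_mul]
    rcases mul_eq_zero.1 (show (X - 2) * (X + 2) = 0 by linear_combination -D) with e | e
    · exact odd_split one_ne_zero (by rw [tAB, inv_one]; linear_combination e) o1
    · refine odd_split (l := -1) (by simp) (by rw [tAB, inv_neg, inv_one]; linear_combination e) fun k => ?_
      rw [inv_neg, inv_one, ← two_mul]; exact mul_ne_zero h2 (by simp)
  obtain ⟨l, m, w, l0, m0, l1, m1, hw⟩ : ∃ l m w : F, l ≠ 0 ∧ m ≠ 0 ∧ (∀ k : ℕ, l ^ k + l⁻¹ ^ k ≠ 0) ∧
      (∀ k : ℕ, m ^ k + m⁻¹ ^ k ≠ 0) ∧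
      w ^ 2 = 4 - X ^ 2 - (l + l⁻¹) ^ 2 - (m + m⁻¹) ^ 2 - X * (l + l⁻¹) * (m + m⁻¹) := by
    by_cases s : IsSquare (-1 : F)
    · obtain ⟨i, hi⟩ := s
      exact ⟨1, 1, i * (X + 2), one_ne_zero, one_ne_zero, o1, o1, by rw [inv_one]; linear_combination -(X + 2) ^ 2 * hi⟩
    obtain ⟨l, m, w, l0, m0, hw⟩ := quad s h4 X
    have k : ∀ l : F, l ≠ 0 → ∀ k : ℕ, l ^ k + l⁻¹ ^ k ≠ 0 := fun l l0 k e => s ⟨l ^ k, by
      have := pow_ne_zero k l0
      rw [inv_pow] at e; field_simp at e; linear_combination -e⟩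
    exact ⟨l, m, w, l0, m0, k l l0, k m m0, hw⟩
  generalize hY : l + l⁻¹ = Y at hw
  generalize hZ : m + m⁻¹ = Z at hw
  obtain ⟨α, β, γ, e1, e2, e3⟩ : ∃ α β γ : F, -2 * α + X * β = Y ∧ X * α - 2 * β = Z ∧
      α ^ 2 + β ^ 2 - α * β * X + γ ^ 2 * (4 - X ^ 2) = 1 :=
    ⟨(-2 * Y - X * Z) / (4 - X ^ 2), (-X * Y - 2 * Z) / (4 - X ^ 2), w / (4 - X ^ 2), by field_simp; ring,
      by field_simp; ring, by field_simp; linear_combination (4 - X ^ 2) * hw⟩
  obtain ⟨C, c1, c2, c3⟩ := key (α * A 0 0 + β * B 0 0 + γ * (A 0 1 * B 1 0 - B 0 1 * A 1 0))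
    (α * A 0 1 + β * B 0 1 + γ * 2 * (A 0 0 * B 0 1 - B 0 0 * A 0 1))
    (α * A 1 0 + β * B 1 0 + γ * 2 * (A 1 0 * B 0 0 - A 0 0 * B 1 0)) (by
      rw [← hX] at e3
      linear_combination e3 + (α ^ 2 + 4 * γ ^ 2) * dA + (β ^ 2 + 4 * γ ^ 2 * (A 0 0 * -A 0 0 - A 0 1 * A 1 0)) * dB)
  refine ⟨pr C, c1, map_mul pr A C ▸ odd_split l0 ?_ l1, map_mul pr B C ▸ odd_split m0 ?_ m1⟩
  · rw [c2, hY, ← e1, ← hX]; linear_combination -2 * α * dA
  · rw [c3, hZ, ← e2, ← hX]; linear_combination -2 * β * dB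

end H22.Lfg
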