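import Cfsg.Agent.H2.Nd0

/-! The counting piece `H2.Nd.Cnt`: `|U| - 1 = |N : W| (|C_U(c)| - 1)` (`H22.NdC.pC`). -/

set_option autoImplicit false

namespace H22.NdC

open Subgroup H18
open scoped commutatorElement

universe u

variable {G : Type*} [Group G]

/-- an `r`-element preserving an `N`-class of size prime to `r` fixes a member of it -/
theorem fix [Finite G] {N : Subgroup G} [hN : N.Normal] {c u : G} {r : ℕ} (hr : r.Prime)
    (hc : PiGrp {r} (zpowers c)) (hd : ¬ r ∣ C1(u).relIndex N) (h : ∃ n ∈ N, c * u * c⁻¹ = n * u * n⁻¹) :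
    ∃ a ∈ N, c * (a⁻¹ * u * a) = a⁻¹ * u * a * c := by
  classical
  haveI := Fact.mk hr
  letI : MulAction N G := MulAction.compHom G (MulAut.conj.comp N.subtype)
  have sm : ∀ (n : N) (x : G), n • x = n * x * (n : G)⁻¹ := fun _ _ => rfl
  have st : MulAction.stabilizer N u = C1(u).subgroupOf N := by
    ext n
    rw [MulAction.mem_stabilizer_iff, sm, mem_subgroupOf, mem_centralizer_singleton_iff, mul_inv_eq_iff_eq_mul]
  have cd : Nat.card (MulAction.orbit N u) = C1(u).relIndex N := by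
    rw [relIndex, ← st, MulAction.index_stabilizer, Nat.card_coe_set_eq]
  obtain ⟨m, hm, e⟩ := h
  have cl : ∀ x : MulAction.orbit N u, c * x * c⁻¹ ∈ MulAction.orbit N u := by
    rintro ⟨_, n, rfl⟩
    refine ⟨⟨c * n * c⁻¹ * m, N.mul_mem (hN.conj_mem _ n.2 c) hm⟩, ?_⟩
    simp only [sm]
    calc c * n * c⁻¹ * m * u * (c * n * c⁻¹ * m)⁻¹ = c * n * c⁻¹ * (m * u * m⁻¹) * (c * n * c⁻¹)⁻¹ := by group
      _ = _ := by rw [← e]; group
  let f : MulAction.orbit N u → MulAction.orbit N u := fun x => ⟨_, cl x⟩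
  have fi : Function.Injective f := fun x y k => Subtype.ext (by simpa [f] using k)
  let σ : Equiv.Perm (MulAction.orbit N u) := Equiv.ofBijective f (Finite.injective_iff_bijective.1 fi)
  have pw : ∀ (k : ℕ) (x : MulAction.orbit N u), ((σ ^ k) x : G) = c ^ k * x * (c ^ k)⁻¹ := by
    intro k
    induction k with
    | zero => simp
    | succ k ih =>
      intro x
      rw [pow_succ', Equiv.Perm.mul_apply]
      show c * ((σ ^ k) x : G) * c⁻¹ = _
      rw [ih, pow_succ']; group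
  obtain ⟨k, hk⟩ := hc.isPGroup ⟨c, mem_zpowers c⟩
  have hk' : c ^ r ^ k = 1 := by simpa using congrArg Subtype.val hk
  haveI := Fintype.ofFinite (MulAction.orbit N u)
  obtain ⟨⟨_, n, rfl⟩, hx⟩ := Equiv.Perm.exists_fixed_point_of_prime (p := r) (n := k) (σ := σ)
    (by rwa [← Nat.card_eq_fintype_card, cd]) (Equiv.ext fun x => Subtype.ext (by rw [pw, hk']; simp))
  have e2 : c * (n * u * (n : G)⁻¹) * c⁻¹ = n * u * (n : G)⁻¹ := congrArg Subtype.val hx
  exact ⟨(n : G)⁻¹, N.inv_mem n.2, by rw [inv_inv, ← mul_inv_eq_iff_eq_mul, e2]⟩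

theorem card_ne [Finite G] (U : Subgroup G) : Nat.card {u : G // u ∈ U ∧ u ≠ 1} = Nat.card U - 1 := by
  have e : {u : G | u ∈ U ∧ u ≠ 1} = (U : Set G) \ {1} := by ext; simp
  have := Set.ncard_diff_singleton_of_mem (s := (U : Set G)) U.one_mem
  rw [← e] at this
  exact this

theorem pC : H2.Nd.Cnt.{u} := by
  intro G _ _ N U W c r hN hU hr hc hd sr cl hW iW
  have key : ∀ u ∈ U, u ≠ 1 → c * u = u * c → ∀ b ∈ N, (c * (b⁻¹ * u * b) = b⁻¹ * u * b * c ↔ b ∈ W) := by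
    intro u hu h1 hcu b hb
    have e : c * (b⁻¹ * u * b) = b⁻¹ * u * b * c ↔ ⁅b, c⁆ * u = u * ⁅b, c⁆ := by
      have a1 : ⁅b, c⁆ * u = b * (c * (b⁻¹ * u * b)) * b⁻¹ * c⁻¹ := by
        rw [commutatorElement_def, mul_assoc _ c⁻¹, (show c⁻¹ * u = u * c⁻¹ from (Commute.inv_left hcu))]; group
      have a2 : u * ⁅b, c⁆ = b * (b⁻¹ * u * b * c) * b⁻¹ * c⁻¹ := by rw [commutatorElement_def]; group
      rw [a1, a2]; simp only [mul_left_inj, mul_right_inj]
    have hbc : ⁅b, c⁆ ∈ N := by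
      rw [commutatorElement_def, mul_assoc, mul_assoc, ← mul_assoc c]
      exact N.mul_mem hb (hN.conj_mem _ (N.inv_mem hb) c)
    rw [e, iW b hb]
    exact ⟨sr _ hbc u hu h1, fun k => (k u hu).symm⟩
  have ex : ∀ u : {u : G // u ∈ U ∧ u ≠ 1}, ∃ a ∈ N, c * (a⁻¹ * u * a) = a⁻¹ * u * a * c := by
    rintro ⟨u, hu, h1⟩
    refine fix hr hc ?_ (cl u hu)
    have : C1(u) ⊓ N = C(U) ⊓ N := by
      ext n
      exact ⟨fun k => ⟨sr n k.2 u hu h1 (mem_centralizer_singleton_iff.1 k.1), k.2⟩,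
        fun k => ⟨mem_centralizer_singleton_iff.2 (k.1 u hu).symm, k.2⟩⟩
    rwa [← inf_relIndex_right, this, inf_relIndex_right]
  choose a aN ac using ex
  have cU : ∀ u ∈ U, ∀ b : G, b⁻¹ * u * b ∈ U := fun u hu b => by simpa using hU.conj_mem u hu b⁻¹
  have c1 : ∀ u : G, u ≠ 1 → ∀ b : G, b⁻¹ * u * b ≠ 1 := fun u hu b k => hu (by
    have : u = b * (b⁻¹ * u * b) * b⁻¹ := by group
    rw [this, k]; group)
  let φ : {u : G // u ∈ U ∧ u ≠ 1} × W → N × {u : G // u ∈ (U ⊓ C1(c) : Subgroup G) ∧ u ≠ 1} := fun x =>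
    (⟨a x.1 * x.2, N.mul_mem (aN _) (hW x.2.2)⟩,
      ⟨(x.2 : G)⁻¹ * ((a x.1)⁻¹ * x.1 * a x.1) * x.2, ⟨cU _ (cU _ x.1.2.1 _) _, mem_centralizer_singleton_iff.2
        ((key _ (cU _ x.1.2.1 _) (c1 _ x.1.2.2 _) (ac _) _ (hW x.2.2)).2 x.2.2).symm⟩, c1 _ (c1 _ x.1.2.2 _) _⟩)
  have bij : Function.Bijective φ := by
    constructor
    · rintro ⟨u, w⟩ ⟨u', w'⟩ k
      have k1 : a u * w = a u' * w' := congrArg (fun z => (z.1 : G)) k
      have k2 : (w : G)⁻¹ * ((a u)⁻¹ * u * a u) * w = (w' : G)⁻¹ * ((a u')⁻¹ * u' * a u') * w' :=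
        congrArg (fun z => (z.2 : G)) k
      have k3 : (a u * w)⁻¹ * u * (a u * w) = (a u' * w')⁻¹ * u' * (a u' * w') := by
        calc _ = (w : G)⁻¹ * ((a u)⁻¹ * u * a u) * w := by group
          _ = _ := by rw [k2]; group
      rw [k1] at k3
      have k4 : u = u' := Subtype.ext (by simpa using k3)
      subst k4
      rw [Subtype.ext (mul_left_cancel k1)]
    · rintro ⟨b, v, ⟨hv, hvc⟩, h1⟩
      let u : {u : G // u ∈ U ∧ u ≠ 1} := ⟨b * v * (b : G)⁻¹, hU.conj_mem _ hv _, by simpa using c1 v h1 (b : G)⁻¹⟩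
      have e : ((a u)⁻¹ * b)⁻¹ * ((a u)⁻¹ * u * a u) * ((a u)⁻¹ * b) = v := by
        show _ * (_ * (b * v * (b : G)⁻¹) * _) * _ = _
        group
      refine ⟨(u, ⟨(a u)⁻¹ * b, (key _ (cU _ u.2.1 _) (c1 _ u.2.2 _) (ac u) _
        (N.mul_mem (N.inv_mem (aN u)) b.2)).1 ?_⟩), Prod.ext (Subtype.ext ?_) (Subtype.ext e)⟩
      · rw [e]; exact (mem_centralizer_singleton_iff.1 hvc).symm
      · exact mul_inv_cancel_left _ _
  have := Nat.card_eq_of_bijective φ bij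
  rw [Nat.card_prod, Nat.card_prod, card_ne, card_ne] at this
  have e : Nat.card N = W.relIndex N * Nat.card W := by
    rw [relIndex, ← (W.subgroupOf N).index_mul_card, Nat.card_congr (subgroupOfEquivOfLe hW).toEquiv]
  rw [e, mul_right_comm] at this
  exact Nat.eq_of_mul_eq_mul_right Nat.card_pos this

end H22.NdC
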