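import Cfsg.Agent.H2.Nd0b

/-! The piece `H2.Nd.PE`: `|Q : Y| = |Y|` by the counting formula in `G` and in `G / Y` (`H22.NdE.pE`). -/

set_option autoImplicit false

namespace H22.NdE

open Subgroup H18 H2.Nd
open scoped commutatorElement

universe u

theorem nt0 {q g n m : ℕ} (hq : 1 < q) (g1 : g ≠ 1) (hn : q ^ n ≠ 1) (h : q ^ n - 1 = g * (q ^ m - 1)) :
    m < n ∧ q ^ n + g = g * q ^ m + 1 := by
  have a : 0 < q ^ n := pow_pos (by omega) _
  have b : 0 < q ^ m := pow_pos (by omega) _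
  refine ⟨by_contra fun k => ?_, ?_⟩
  · have c : q ^ n ≤ q ^ m := Nat.pow_le_pow_right (by omega) (by omega)
    rcases (show g = 0 ∨ 2 ≤ g by omega) with rfl | d
    · omega
    · have := Nat.mul_le_mul_right (q ^ m - 1) d
      omega
  · obtain ⟨x, hx⟩ : ∃ x, q ^ m = x + 1 := ⟨_, (Nat.sub_add_cancel b).symm⟩
    rw [hx, Nat.add_sub_cancel] at h
    rw [hx, mul_add]; omega

theorem nt1 {q g n m n' m' : ℕ} (hq : 1 < q) (a : m < n) (a' : m' < n') (e : q ^ n + g = g * q ^ m + 1)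
    (e' : q ^ n' + g = g * q ^ m' + 1) (h : m < m') : False := by
  have d1 : q ^ (m + 1) ∣ q ^ n := pow_dvd_pow _ a
  have d2 : q ^ (m + 1) ∣ q ^ n' := pow_dvd_pow _ (by omega)
  have d3 : q ^ (m + 1) ∣ g * q ^ m' := (pow_dvd_pow _ h).mul_left _
  have d4 : q ^ (m + 1) ∣ g * q ^ m :=
    (Nat.dvd_add_right d2).1 ((show q ^ n + g * q ^ m' = q ^ n' + g * q ^ m by omega) ▸ dvd_add d1 d3)
  rw [pow_succ'] at d4
  have d5 : q ∣ g := Nat.dvd_of_mul_dvd_mul_right (pow_pos (by omega) _) d4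
  have d6 : q ∣ g * q ^ m' + 1 := e' ▸ dvd_add (dvd_pow_self _ (by omega)) d5
  have := Nat.le_of_dvd one_pos ((Nat.dvd_add_right (d5.mul_right _)).1 d6)
  omega

theorem nt {q g n m n' m' : ℕ} (hq : 1 < q) (g1 : g ≠ 1) (hn : q ^ n ≠ 1) (hn' : q ^ n' ≠ 1)
    (h : q ^ n - 1 = g * (q ^ m - 1)) (h' : q ^ n' - 1 = g * (q ^ m' - 1)) : q ^ n = q ^ n' := by
  obtain ⟨a, e⟩ := nt0 hq g1 hn h
  obtain ⟨a', e'⟩ := nt0 hq g1 hn' h'
  rcases lt_trichotomy m m' with k | rfl | k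
  · exact (nt1 hq a a' e e' k).elim
  · omega
  · exact (nt1 hq a' a e' e k).elim

variable {G : Type*} [Group G]

theorem qc (C : Subgroup G) [C.Normal] {x y : G} : (x : G ⧸ C) * y = y * x ↔ ⁅x, y⁆ ∈ C := by
  rw [← commutatorElement_eq_one_iff_mul_comm, ← QuotientGroup.eq_one_iff]
  exact Iff.rfl

theorem cm {N : Subgroup G} (hN : N.Normal) {a : G} (ha : a ∈ N) (c : G) : ⁅a, c⁆ ∈ N := by
  rw [commutatorElement_def, mul_assoc, mul_assoc, ← mul_assoc c]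
  exact N.mul_mem ha (hN.conj_mem _ (N.inv_mem ha) c)

variable [Finite G] {N Y C Q B : Subgroup G} {c : G} {q r : ℕ}

theorem cen (h : Co N Y C Q B c q r) {a : G} (ha : a ∈ N) (hY : a ∈ C(Y)) : ⁅a, c⁆ ∈ C := by
  have := h.nC
  have := h.nY
  have := h.nQ
  have QL : Q ≤ ⁅N, N⁆ := h.sup ▸ le_sup_left
  obtain ⟨e, he, pe, pb⟩ := H18.exists_pi_decomp {q} a
  have eN : e ∈ N := zpowers_le_of_mem ha he
  have bN : e⁻¹ * a ∈ N := N.mul_mem (N.inv_mem eN) ha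
  have bY : e⁻¹ * a ∈ C(Y) := mul_mem (inv_mem (zpowers_le_of_mem hY he)) hY
  have hb : ⁅e⁻¹ * a, c⁆ ∈ C := h.LC (by_contra fun k => by
    obtain ⟨⟨y, hy⟩, y1⟩ := ne_bot_iff_exists_ne_one.1 h.Y0
    obtain ⟨n, -, hn⟩ := h.cam _ bN k y (QL (h.YQ hy))
    have cy : Commute (e⁻¹ * a) y := (bY y hy).symm
    have : y ^ orderOf (e⁻¹ * a) = 1 := by
      have := congrArg (· ^ orderOf (e⁻¹ * a)) hn
      simp only [conj_pow, pow_orderOf_eq_one, cy.mul_pow] at this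
      simpa using this.symm
    exact y1 (Subtype.ext ((h.piQ.elt (h.YQ hy)).eq_one' (pb.of_dvd (orderOf_dvd_of_pow_eq_one this)))))
  have eC : e ∈ C := by
    have p1 : PiGrp {q} (zpowers (e : G ⧸ Y)) :=
      piGrp_zpowers.2 (pe.of_dvd (orderOf_map_dvd (QuotientGroup.mk' Y) e))
    have p2 : PiGrp {q} (Q.map (QuotientGroup.mk' Y)) := h.piQ.of_dvd (card_map_dvd _ _)
    have nQ := h.nQ.map _ (QuotientGroup.mk'_surjective Y)
    obtain ⟨⟨_, ⟨u, hu, rfl⟩, k⟩, u1⟩ := ne_bot_iff_exists_ne_one.1 (p1.meet_cent p2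
      (by rw [normalizer_eq_top]; exact le_top)
      (fun k => h.QY (by rwa [Subgroup.map_eq_bot_iff, QuotientGroup.ker_mk'] at k)))
    exact (h.srq e eN u (QL hu) ((qc Y).1 (k _ (mem_zpowers _)))).resolve_left
      fun t => u1 (Subtype.ext ((QuotientGroup.eq_one_iff u).2 t))
  rw [← qc] at hb ⊢
  rwa [QuotientGroup.mk_mul, QuotientGroup.mk_inv, (QuotientGroup.eq_one_iff e).2 eC, inv_one, one_mul] at hb

theorem cen2 (h : Co N Y C Q B c q r) {a : G} (ha : a ∈ N) (hY : ⁅a, c⁆ ∈ C(Y)) : ⁅a, c⁆ ∈ C := by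
  have := h.nC
  have sN := cm h.nN ha c
  have k : Commute ((⁅a, c⁆ : G) : G ⧸ C) c := (qc C).2 (cen h sN hY)
  obtain ⟨j, hj⟩ := h.rc.isPGroup ⟨c, mem_zpowers c⟩
  have hj' : c ^ r ^ j = 1 := by simpa using congrArg Subtype.val hj
  have e1 : ((⁅a, c⁆ : G) : G ⧸ C) ^ r ^ j = 1 := by
    have := k.mul_pow (r ^ j)
    rw [← QuotientGroup.mk_mul, ← QuotientGroup.mk_pow, ← QuotientGroup.mk_pow C c, commutatorElement_def,
      inv_mul_cancel_right, conj_pow, hj'] at this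
    simpa [commutatorElement_def] using this.symm
  have e2 : ((⁅a, c⁆ : G) : G ⧸ C) ^ C.relIndex N = 1 := by
    rw [← QuotientGroup.mk_pow, QuotientGroup.eq_one_iff]
    exact C.pow_relIndex_mem sN
  rw [← QuotientGroup.eq_one_iff, ← orderOf_eq_one_iff]
  exact Nat.eq_one_of_dvd_coprimes (((Nat.Prime.coprime_iff_not_dvd h.hr).2 h.rd).pow_left j)
    (orderOf_dvd_of_pow_eq_one e1) (orderOf_dvd_of_pow_eq_one e2)

theorem pE (hC : Cnt.{u}) : PE.{u} := by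
  intro G _ _ N Y C Q B c q r h
  have := h.nC
  have := h.nY
  have QL : Q ≤ ⁅N, N⁆ := h.sup ▸ le_sup_left
  have QC : Q ≤ C := QL.trans h.LC
  have YC : Y ≤ C := h.YQ.trans QC
  let W : Subgroup G := N ⊓ C1((c : G ⧸ C)).comap (QuotientGroup.mk' C)
  have mW : ∀ a ∈ N, a ∈ W ↔ ⁅a, c⁆ ∈ C := fun a ha =>
    ⟨fun k => (qc C).1 (mem_C1.1 k.2), fun k => ⟨ha, mem_C1.2 ((qc C).2 k)⟩⟩
  have YW : Y ≤ W := fun y hy => (mW y (h.CN (YC hy))).2 (cm h.nC (YC hy) c)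
  have g1 : W.relIndex N ≠ 1 := fun k =>
    let ⟨x, a, b⟩ := h.x1
    b ((mW x a).1 (relIndex_eq_one.1 k a))
  have A := hC G N Y W c r h.nN h.nY h.hr h.rc (fun k => h.rd (k.trans (relIndex_dvd_of_le_left _ h.CY))) h.sry
    (fun u hu => h.cl c u (QL (h.YQ hu))) inf_le_left
    fun a ha => (mW a ha).trans ⟨fun k => h.CY k, cen2 h ha⟩
  have sj := QuotientGroup.mk'_surjective Y
  have ri : ∀ X : Subgroup G, Y ≤ X → (X.map (QuotientGroup.mk' Y)).relIndex (N.map (QuotientGroup.mk' Y)) =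
      X.relIndex N := fun X hX => by
    rw [relIndex_map_map, QuotientGroup.ker_mk', sup_of_le_left hX, sup_of_le_left (YC.trans h.CN)]
  have cQ : ∀ n ∈ C, (n : G ⧸ Y) ∈ C(Q.map (QuotientGroup.mk' Y)) := by
    rintro n hn _ ⟨u, hu, rfl⟩
    exact (qc Y).2 (h.CC ▸ commutator_mem_commutator (QC hu) hn)
  have p2 : PiGrp {q} (Q.map (QuotientGroup.mk' Y)) := h.piQ.of_dvd (card_map_dvd _ _)
  have A' := hC (G ⧸ Y) (N.map (QuotientGroup.mk' Y)) (Q.map (QuotientGroup.mk' Y)) (W.map (QuotientGroup.mk' Y)) c r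
    (h.nN.map _ sj) (h.nQ.map _ sj) h.hr
    (piGrp_zpowers.2 ((piGrp_zpowers.1 h.rc).of_dvd (orderOf_map_dvd (QuotientGroup.mk' Y) c)))
    (fun k => h.rd (ri C YC ▸ k.trans (relIndex_dvd_of_le_left _ (by rintro _ ⟨n, hn, rfl⟩; exact cQ n hn))))
    (by
      rintro _ ⟨n, hn, rfl⟩ _ ⟨u, hu, rfl⟩ u1 k
      exact cQ n ((h.srq n hn u (QL hu) ((qc Y).1 k)).resolve_left fun t => u1 ((QuotientGroup.eq_one_iff u).2 t)))
    (by
      rintro _ ⟨u, hu, rfl⟩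
      obtain ⟨n, hn, e⟩ := h.cl c u (QL hu)
      exact ⟨n, ⟨n, hn, rfl⟩, by simpa using congrArg (QuotientGroup.mk' Y) e⟩)
    (map_mono inf_le_left)
    (by
      rintro _ ⟨a, ha, rfl⟩
      have e : QuotientGroup.mk' Y a ∈ W.map (QuotientGroup.mk' Y) ↔ a ∈ W := by
        rw [← mem_comap, comap_map_eq_self (by rwa [QuotientGroup.ker_mk'])]
      rw [e, mW a ha]
      refine ⟨fun k => cQ _ k, fun k => ?_⟩
      obtain ⟨u, hu, uY⟩ := SetLike.not_le_iff_exists.1 h.QY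
      exact (h.srq _ (cm h.nN ha c) u (QL hu) ((qc Y).1 (k _ ⟨u, hu, rfl⟩).symm)).resolve_left uY)
  rw [ri W YW] at A'
  have e : Nat.card (Q.map (QuotientGroup.mk' Y)) = Y.relIndex Q := by
    rw [← relIndex_ker, QuotientGroup.ker_mk']
  obtain ⟨n, hn⟩ := (h.piQ.of_le h.YQ).card_eq_pow
  obtain ⟨m, hm⟩ := ((h.piQ.of_le h.YQ).inf_left (B := C1(c))).card_eq_pow
  obtain ⟨n', hn'⟩ := p2.card_eq_pow
  obtain ⟨m', hm'⟩ := (p2.inf_left (B := C1((c : G ⧸ Y)))).card_eq_pow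
  rw [hn, hm] at A
  rw [hn', hm'] at A'
  rw [← e, hn, hn']
  refine nt h.hq.one_lt g1 ?_ ?_ A' A
  · rw [← hn', e]; exact fun k => h.QY (relIndex_eq_one.1 k)
  · rw [← hn]; exact fun k => h.Y0 (card_eq_one.1 k)

end H22.NdE
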