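import Cfsg.Statements.S4930
import Cfsg.Agent.S4931

set_option autoImplicit false
open Cfsg

namespace H22.OdA

theorem card_comm {G : Type*} [Group G] (P N : Subgroup G) (h : P ≤ N) :
    Nat.card (commutator (P.subgroupOf N)) = Nat.card (commutator P) := by
  let e := Subgroup.subgroupOfEquivOfLe h
  have h1 : (commutator (P.subgroupOf N)).map e.toMonoidHom = commutator P := by
    rw [commutator_def, commutator_def, Subgroup.map_commutator,
      Subgroup.map_top_of_surjective _ e.surjective]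
  rw [← h1]
  exact (Subgroup.card_map_of_injective e.injective).symm

theorem idx {G : Type*} [Group G] [Finite G] (p : ℕ) [Fact p.Prime] (P : Sylow p G) :
    ¬ p ∣ (Subgroup.normalizer ((P : Subgroup G) : Set G)).index := fun h =>
  P.not_dvd_index (h.trans (Subgroup.index_dvd_of_le Subgroup.le_normalizer))

theorem dP {G : Type*} [Group G] [Finite G] (p : ℕ) [Fact p.Prime] (P : Sylow p G) (s : ℕ)
    (hD : ∀ (Q : Subgroup (Subgroup.normalizer ((P : Subgroup G) : Set G))) [Q.Normal], IsPGroup p Q →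
      ¬ p ∣ Q.index → Nat.card (Subgroup.normalizer ((P : Subgroup G) : Set G)) = Nat.card (commutator Q) * s) :
    Nat.card (Subgroup.normalizer ((P : Subgroup G) : Set G)) = Nat.card (commutator ↥P) * s := by
  have hPN : (P : Subgroup G) ≤ Subgroup.normalizer ((P : Subgroup G) : Set G) := Subgroup.le_normalizer
  haveI : ((P : Subgroup G).subgroupOf (Subgroup.normalizer ((P : Subgroup G) : Set G))).Normal :=
    Subgroup.normal_in_normalizer
  have h := hD ((P : Subgroup G).subgroupOf _) (P.subtype hPN).isPGroup' (P.subtype hPN).not_dvd_index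
  rw [h, card_comm _ _ hPN]
  rfl

theorem asm {G : Type*} [Group G] [Finite G] (p : ℕ) [Fact p.Prime] (P : Sylow p G) (a b : ℕ)
    (hD : Nat.card (Subgroup.normalizer ((P : Subgroup G) : Set G)) = Nat.card (commutator ↥P) * a)
    (hIE : a ≤ b ∧ (a = b → ∀ θ : IrrCharacter (Subgroup.normalizer ((P : Subgroup G) : Set G)),
      ¬ p ∣ charDegree θ.1 → ∃ χ : IrrCharacter G,
        ∀ x : Subgroup.normalizer ((P : Subgroup G) : Set G), χ.1 x = θ.1 x))
    (hC : ∀ (K : Subgroup G) [K.Normal], K ⊓ Subgroup.normalizer ((P : Subgroup G) : Set G) = ⊥ →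
      K ⊔ Subgroup.normalizer ((P : Subgroup G) : Set G) = ⊤ → b ≤ a) :
    Nat.card (Subgroup.normalizer ((P : Subgroup G) : Set G)) ≤ Nat.card (commutator ↥P) * b ∧
    (Nat.card (Subgroup.normalizer ((P : Subgroup G) : Set G)) = Nat.card (commutator ↥P) * b ↔
      ∃ K : Subgroup G, K.Normal ∧ K ⊓ Subgroup.normalizer ((P : Subgroup G) : Set G) = ⊥ ∧
        K ⊔ Subgroup.normalizer ((P : Subgroup G) : Set G) = ⊤) := by
  rw [hD]
  refine ⟨Nat.mul_le_mul_left _ hIE.1, fun h => ?_, ?_⟩
  · have hab : a = b := Nat.eq_of_mul_eq_mul_left Nat.card_pos h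
    obtain ⟨K, h1, h2, h3⟩ := (Cfsg.Agent.S4931.result p P).1 (hIE.2 hab)
    exact ⟨K, h1, h3, h2⟩
  · rintro ⟨K, h1, h2, h3⟩
    rw [le_antisymm hIE.1 (hC K h2 h3)]

end H22.OdA
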